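import Cfsg.Prelude.Def_Characters
import Cfsg.Prelude.Def_Blocks
import Cfsg.Agent.Char.Kernel
import Cfsg.Agent.Char.Linear
import Cfsg.Agent.Char.Integrality
import Cfsg.Agent.PGroup.Basic

/-!
# `p`-groups with derived subgroup of order `p`
-/

set_option autoImplicit false
set_option linter.style.haveILetI false
set_option linter.unusedSectionVars false

open scoped ComplexConjugate
open Cfsg Cfsg.Agent.Char

namespace Cfsg.Agent.CharGaloisP

universe u

variable {P : Type u} [Group P] [Finite P] {p : ℕ} [hp : Fact p.Prime]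

theorem apply_one_eq (χ : IrrCharacter P) :
    (χ : P → ℂ) 1 = (charDegree (χ : P → ℂ) : ℂ) := by
  obtain ⟨n, hn⟩ := isCharacter_one_nat (isCharacter_of_irr χ.2)
  rw [charDegree, hn, Complex.natCast_re, Nat.floor_natCast]

theorem degree_pos (χ : IrrCharacter P) : 0 < charDegree (χ : P → ℂ) :=
  Nat.pos_of_ne_zero fun h => irr_one_ne_zero χ.2 (by rw [apply_one_eq, h, Nat.cast_zero])

/-- A character trivial on the derived subgroup is linear. -/
theorem degree_one_of_trivial_commutator (χ : IrrCharacter P)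
    (h : ∀ c ∈ commutator P, (χ : P → ℂ) c = (χ : P → ℂ) 1) :
    charDegree (χ : P → ℂ) = 1 := by
  obtain ⟨ψ, hψ, hg⟩ := irr_exists_descend χ.2 (commutator P) h
  have hcomm : ∀ a b : P ⧸ commutator P, a * b = b * a := fun a b => by
    induction a using QuotientGroup.induction_on with | _ x =>
    induction b using QuotientGroup.induction_on with | _ y =>
    rw [← QuotientGroup.mk_mul, ← QuotientGroup.mk_mul, QuotientGroup.eq]
    rw [show (x * y)⁻¹ * (y * x) = y⁻¹ * x⁻¹ * (y⁻¹)⁻¹ * (x⁻¹)⁻¹ by group]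
    exact Subgroup.commutator_mem_commutator (Subgroup.mem_top _) (Subgroup.mem_top _)
  have h1 := irr_degree_one_of_comm hcomm hψ
  have h2 : (χ : P → ℂ) 1 = 1 := by rw [hg, QuotientGroup.mk_one, h1]
  rw [apply_one_eq] at h2
  exact_mod_cast h2

variable (hP : IsPGroup p P) (hc : Nat.card (commutator P) = p)
include hP hc

theorem commutator_le_center : commutator P ≤ Subgroup.center P :=
  PGroup.le_center_of_card_eq hP hc

/-- A nonlinear character is nowhere trivial on the derived subgroup. -/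
theorem ne_one_of_mem_commutator (χ : IrrCharacter P) (hχ : charDegree (χ : P → ℂ) ≠ 1)
    {c : P} (hcm : c ∈ commutator P) (h : (χ : P → ℂ) c = (χ : P → ℂ) 1) : c = 1 := by
  by_contra hne
  apply hχ
  refine degree_one_of_trivial_commutator χ fun d hd => ?_
  obtain ⟨K, hKn, hK⟩ := isCharacter_exists_kernel (isCharacter_of_irr χ.2)
  have hz : Subgroup.zpowers c = commutator P := by
    refine Subgroup.eq_of_le_of_card_ge (Subgroup.zpowers_le.mpr hcm) ?_
    rw [hc, Nat.card_zpowers]
    refine le_of_eq (orderOf_eq_prime ?_ hne).symm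
    have h1 := congrArg Subtype.val (pow_card_eq_one' (x := (⟨c, hcm⟩ : commutator P)))
    rw [hc] at h1
    simpa using h1
  rw [← hz] at hd
  exact (hK d).mp ((Subgroup.zpowers_le.mpr ((hK c).mpr h)) hd)

/-- A nonlinear character vanishes off the centre. -/
theorem eq_zero_of_notMem_center (χ : IrrCharacter P) (hχ : charDegree (χ : P → ℂ) ≠ 1)
    {g : P} (hg : g ∉ Subgroup.center P) : (χ : P → ℂ) g = 0 := by
  obtain ⟨h, hh⟩ : ∃ h, h * g ≠ g * h := by
    by_contra! hcon
    exact hg (Subgroup.mem_center_iff.mpr hcon)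
  set c := h * g * h⁻¹ * g⁻¹ with hcdef
  have hcm : c ∈ commutator P :=
    Subgroup.commutator_mem_commutator (Subgroup.mem_top _) (Subgroup.mem_top _)
  obtain ⟨ω, -, hωc, hω⟩ := irr_mul_center χ.2 (commutator_le_center hP hc hcm)
  have hω1 : ω ≠ 1 := by
    intro h1
    rw [h1, one_mul] at hωc
    have h2 := ne_one_of_mem_commutator hP hc χ hχ hcm hωc
    apply hh
    calc h * g = c * (g * h) := by rw [hcdef]; group
      _ = g * h := by rw [h2, one_mul]
  have h3 := hω g
  rw [show c * g = h * g * h⁻¹ by rw [hcdef]; group, irr_isClassFunction χ.2] at h3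
  have h4 : (ω - 1) * (χ : P → ℂ) g = 0 := by rw [sub_mul, one_mul, ← h3, sub_self]
  exact (mul_eq_zero.mp h4).resolve_left (sub_ne_zero.mpr hω1)

/-- The degree of a nonlinear character. -/
theorem degree_sq (χ : IrrCharacter P) (hχ : charDegree (χ : P → ℂ) ≠ 1) :
    charDegree (χ : P → ℂ) ^ 2 * Nat.card (Subgroup.center P) = Nat.card P := by
  classical
  letI := Fintype.ofFinite P
  have h := sum_mul_conj_eq_card_mul_classInner (χ : P → ℂ) (χ : P → ℂ)
  rw [classInner_irr_self χ.2, mul_one] at h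
  rw [← Finset.sum_subset (Finset.subset_univ (Finset.univ.filter (· ∈ Subgroup.center P)))
    (fun g _ hg => by
      rw [eq_zero_of_notMem_center hP hc χ hχ (by simpa using hg), zero_mul])] at h
  have hterm : ∀ z ∈ Finset.univ.filter (fun z => z ∈ Subgroup.center P),
      (χ : P → ℂ) z * conj ((χ : P → ℂ) z) = ((charDegree (χ : P → ℂ) ^ 2 : ℕ) : ℂ) := by
    intro z hz
    obtain ⟨ω, hω, hωz, -⟩ := irr_mul_center χ.2 (Finset.mem_filter.mp hz).2
    have hn : ω * conj ω = 1 := by
      rw [Complex.mul_conj', Complex.norm_eq_one_of_pow_eq_one hω (orderOf_pos z).ne']; simp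
    rw [hωz, apply_one_eq, map_mul, Complex.conj_natCast]
    push_cast
    linear_combination (charDegree (χ : P → ℂ) : ℂ) ^ 2 * hn
  rw [Finset.sum_congr rfl hterm, Finset.sum_const, nsmul_eq_mul] at h
  rw [mul_comm, Nat.card_eq_fintype_card, Fintype.card_subtype]
  exact_mod_cast h

/-- Some character is nonlinear. -/
theorem exists_nonlinear : ∃ χ : IrrCharacter P, charDegree (χ : P → ℂ) ≠ 1 := by
  by_contra! hcon
  obtain ⟨c, hcm, hc1⟩ : ∃ c ∈ commutator P, c ≠ 1 := by
    by_contra! h
    rw [(Subgroup.eq_bot_iff_forall _).mpr h, Subgroup.card_bot] at hc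
    exact hp.out.one_lt.ne hc
  obtain ⟨χ, hχ⟩ := exists_irr_ne_degree hc1
  apply hχ
  have h1 : (χ : P → ℂ) 1 = 1 := by rw [apply_one_eq, hcon χ, Nat.cast_one]
  rw [linear_eq_one_of_mem_commutator (isCharacter_of_irr χ.2) h1 hcm, h1]

end Cfsg.Agent.CharGaloisP
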