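import Cfsg.Agent.CharGaloisP.Basic
import Mathlib.RingTheory.IntegralDomain
import Mathlib.RingTheory.RootsOfUnity.PrimitiveRoots

/-!
# Characters of equal degree that are Galois conjugate
-/

set_option autoImplicit false
set_option linter.style.haveILetI false
set_option linter.unusedSectionVars false

open scoped ComplexConjugate
open Cfsg Cfsg.Agent.Char

namespace Cfsg.Agent.CharGaloisP

universe u

/-- Any two nonlinear characters of equal degree are Galois conjugate. -/
def GaloisCond (P : Type u) [Group P] : Prop :=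
  ∀ χ ψ : IrrCharacter P, charDegree (χ : P → ℂ) ≠ 1 →
    charDegree (χ : P → ℂ) = charDegree (ψ : P → ℂ) →
    ∃ k : ℕ, Nat.Coprime k (Nat.card P) ∧ ∀ g : P, (ψ : P → ℂ) g = (χ : P → ℂ) (g ^ k)

variable {P : Type u} [Group P] [Finite P] {p : ℕ} [hp : Fact p.Prime]

theorem card_map_mk (K H : Subgroup P) [K.Normal] (h : K ≤ H) :
    Nat.card (H.map (QuotientGroup.mk' K)) * Nat.card K = Nat.card H := by
  have h1 := Subgroup.relIndex_comap (⊥ : Subgroup (P ⧸ K)) (QuotientGroup.mk' K) H
  rw [MonoidHom.comap_bot, QuotientGroup.ker_mk', Subgroup.relIndex_bot_left] at h1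
  rw [← h1, mul_comm, ← Subgroup.relIndex_bot_left, ← Subgroup.relIndex_bot_left,
    Subgroup.relIndex_mul_relIndex _ _ _ bot_le h]

theorem commutator_quotient (K : Subgroup P) [K.Normal] :
    commutator (P ⧸ K) = (commutator P).map (QuotientGroup.mk' K) := by
  rw [_root_.commutator, _root_.commutator, Subgroup.map_commutator,
    Subgroup.map_top_of_surjective _ (QuotientGroup.mk'_surjective K)]

theorem inflate_degree (K : Subgroup P) [K.Normal] (χ : IrrCharacter (P ⧸ K)) :
    charDegree (((irrEquivQuotient K χ : IrrCharacter P)) : P → ℂ) =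
      charDegree (χ : P ⧸ K → ℂ) := by
  rw [charDegree, charDegree, irrEquivQuotient_apply, QuotientGroup.mk_one]

theorem galoisCond_quotient (h : GaloisCond P) (K : Subgroup P) [K.Normal] :
    GaloisCond (P ⧸ K) := by
  intro χ ψ hne heq
  obtain ⟨k, hk, hkg⟩ := h (irrEquivQuotient K χ : IrrCharacter P)
    (irrEquivQuotient K ψ : IrrCharacter P) (by rw [inflate_degree]; exact hne)
    (by rw [inflate_degree, inflate_degree]; exact heq)
  refine ⟨k, hk.coprime_dvd_right ?_, fun g => ?_⟩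
  · exact Dvd.intro _ (Subgroup.card_eq_card_quotient_mul_card_subgroup K).symm
  · induction g using QuotientGroup.induction_on with | _ x =>
    have h1 := hkg x
    rwa [irrEquivQuotient_apply, irrEquivQuotient_apply, QuotientGroup.mk_pow] at h1

/-- All nonlinear characters are faithful and the centre is cyclic. -/
theorem isCyclic_center_of_galoisCond (hP : IsPGroup p P) (hc : Nat.card (commutator P) = p)
    (hG : GaloisCond P) : IsCyclic (Subgroup.center P) := by
  classical
  letI := Fintype.ofFinite P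
  obtain ⟨χ₀, hχ₀⟩ := exists_nonlinear hP hc
  have hf : ∀ n : P, (χ₀ : P → ℂ) n = (χ₀ : P → ℂ) 1 → n = 1 := by
    intro n hn
    by_contra hne
    have hncm : n ∉ commutator P := fun h => hne (ne_one_of_mem_commutator hP hc χ₀ hχ₀ h hn)
    obtain ⟨K, hKn, hK⟩ := isCharacter_exists_kernel (isCharacter_of_irr χ₀.2)
    have hall : ∀ ψ : IrrCharacter P, charDegree (ψ : P → ℂ) ≠ 1 →
        (ψ : P → ℂ) n = (ψ : P → ℂ) 1 := by
      intro ψ hψ
      have h1 := degree_sq hP hc χ₀ hχ₀
      have h2 := degree_sq hP hc ψ hψ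
      have h3 : charDegree (χ₀ : P → ℂ) = charDegree (ψ : P → ℂ) :=
        Nat.pow_left_injective two_ne_zero
          (Nat.eq_of_mul_eq_mul_right Nat.card_pos (h1.trans h2.symm))
      obtain ⟨k, -, hk⟩ := hG χ₀ ψ hχ₀ h3
      rw [hk, hk, one_pow]
      exact (hK _).mp (K.pow_mem ((hK n).mpr hn) k)
    have hsum := sum_irr_degree_mul n
    rw [if_neg hne, ← Finset.sum_filter_add_sum_filter_not Finset.univ
      (fun ψ : IrrCharacter P => ∀ c ∈ commutator P, (ψ : P → ℂ) c = (ψ : P → ℂ) 1)] at hsum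
    haveI : Fintype (P ⧸ commutator P) := Fintype.ofFinite _
    have hlin : ∑ ψ ∈ Finset.univ.filter (fun ψ : IrrCharacter P =>
        ∀ c ∈ commutator P, (ψ : P → ℂ) c = (ψ : P → ℂ) 1),
        (ψ : P → ℂ) 1 * (ψ : P → ℂ) n = 0 := by
      rw [Finset.sum_subtype (p := fun ψ : IrrCharacter P =>
        ∀ c ∈ commutator P, (ψ : P → ℂ) c = (ψ : P → ℂ) 1) _ (fun x => by simp)]
      rw [← Equiv.sum_comp (irrEquivQuotient (commutator P))]
      simp only [irrEquivQuotient_apply, QuotientGroup.mk_one]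
      rw [sum_irr_degree_mul, if_neg (mt (QuotientGroup.eq_one_iff n).mp hncm)]
    rw [hlin, zero_add, Finset.sum_congr rfl (g := fun ψ : IrrCharacter P =>
      ((charDegree (ψ : P → ℂ) ^ 2 : ℕ) : ℂ)) fun ψ hψ => ?_, ← Nat.cast_sum, Nat.cast_eq_zero,
      Finset.sum_eq_zero_iff] at hsum
    · have := hsum χ₀ (Finset.mem_filter.mpr ⟨Finset.mem_univ _, fun h =>
        hχ₀ (degree_one_of_trivial_commutator χ₀ h)⟩)
      exact (degree_pos χ₀).ne' (pow_eq_zero_iff two_ne_zero |>.mp this)
    · have hψ1 : charDegree (ψ : P → ℂ) ≠ 1 := by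
        intro h1
        apply (Finset.mem_filter.mp hψ).2
        intro c hcm
        have h2 : (ψ : P → ℂ) 1 = 1 := by rw [apply_one_eq, h1, Nat.cast_one]
        rw [linear_eq_one_of_mem_commutator (isCharacter_of_irr ψ.2) h2 hcm, h2]
      rw [hall ψ hψ1, apply_one_eq, Nat.cast_pow, sq]
  have hω : ∀ z : Subgroup.center P, ∃ ω : ℂ, (χ₀ : P → ℂ) z = ω * (χ₀ : P → ℂ) 1 ∧
      ∀ x, (χ₀ : P → ℂ) ((z : P) * x) = ω * (χ₀ : P → ℂ) x := fun z => by
    obtain ⟨ω, -, h1, h2⟩ := irr_mul_center χ₀.2 z.2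
    exact ⟨ω, h1, h2⟩
  choose ω hω1 hω2 using hω
  have h0 := irr_one_ne_zero χ₀.2
  let f : Subgroup.center P →* ℂ :=
    { toFun := ω
      map_one' := mul_right_cancel₀ h0 (by rw [← hω1, one_mul, Subgroup.coe_one])
      map_mul' := fun a b => mul_right_cancel₀ h0 (by
        rw [← hω1, Subgroup.coe_mul, hω2, hω1, mul_assoc]) }
  refine isCyclic_of_subgroup_isDomain f ((injective_iff_map_eq_one f).mpr fun z hz => ?_)
  refine Subtype.ext (hf z ?_)
  rw [hω1, show ω z = 1 from hz, one_mul]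

/-- The counting argument. -/
theorem false_of_layer (hP : IsPGroup p P) (hG : GaloisCond P) (K : Subgroup P) [K.Normal]
    (hK : Nat.card K = p) (hKc : K ≤ commutator P) (hPc : Nat.card (commutator P) = p * p) :
    False := by
  classical
  letI := Fintype.ofFinite P
  letI : Fintype (P ⧸ K) := Fintype.ofFinite _
  set π := QuotientGroup.mk' K with hπ
  have hπs : Function.Surjective π := QuotientGroup.mk'_surjective K
  have hQ : IsPGroup p (P ⧸ K) := hP.to_quotient K
  have hQc : Nat.card (commutator (P ⧸ K)) = p := by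
    have h := card_map_mk K (commutator P) hKc
    rw [← commutator_quotient, hK, hPc] at h
    exact Nat.eq_of_mul_eq_mul_right hp.out.pos h
  have hcyc : IsCyclic (Subgroup.center (P ⧸ K)) :=
    isCyclic_center_of_galoisCond hQ hQc (galoisCond_quotient hG K)
  obtain ⟨χQ, hχQ⟩ := exists_nonlinear hQ hQc
  set D := charDegree (χQ : P ⧸ K → ℂ) with hD
  set c := Nat.card (Subgroup.center (P ⧸ K)) with hcdef
  have hDc : D ^ 2 * c = Nat.card (P ⧸ K) := degree_sq hQ hQc χQ hχQ
  have hcardP : Nat.card P = D ^ 2 * c * p := by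
    rw [hDc, ← hK]; exact Subgroup.card_eq_card_quotient_mul_card_subgroup K
  have hdp : ∀ χ : IrrCharacter P, ∃ n, charDegree (χ : P → ℂ) = p ^ n := by
    intro χ
    obtain ⟨k, hk⟩ := IsPGroup.iff_card.mp hP
    obtain ⟨d, -, hd, hdvd⟩ := irr_degree_dvd_card χ.2
    have h1 : charDegree (χ : P → ℂ) = d := by
      have := apply_one_eq χ
      rw [hd] at this
      exact_mod_cast this.symm
    obtain ⟨n, -, hn⟩ := (Nat.dvd_prime_pow hp.out).mp (hk ▸ hdvd)
    exact ⟨n, h1.trans hn⟩
  obtain ⟨m, hm⟩ : ∃ m, D = p ^ m := by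
    obtain ⟨n, hn⟩ := hdp (irrEquivQuotient K χQ : IrrCharacter P)
    rw [inflate_degree] at hn
    exact ⟨n, hn⟩
  obtain ⟨s, hs⟩ := IsPGroup.iff_card.mp (hQ.to_subgroup (Subgroup.center (P ⧸ K)))
  have hKZ : K ≤ Subgroup.center P := PGroup.le_center_of_card_eq hP hK
  have hKp : ∀ d ∈ K, d ^ p = 1 := by
    intro d hd
    have h1 := congrArg Subtype.val (pow_card_eq_one' (x := (⟨d, hd⟩ : K)))
    rw [hK] at h1
    simpa using h1
  -- the exponent
  have hpowc : ∀ x : P ⧸ K, x ^ p ∈ Subgroup.center (P ⧸ K) := by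
    intro x
    rw [Subgroup.mem_center_iff]
    intro y
    set d := y * x * y⁻¹ * x⁻¹ with hd
    have hdm : d ∈ commutator (P ⧸ K) :=
      Subgroup.commutator_mem_commutator (Subgroup.mem_top _) (Subgroup.mem_top _)
    have hdp' : d ^ p = 1 := by
      have h1 := congrArg Subtype.val (pow_card_eq_one' (x := (⟨d, hdm⟩ : commutator (P ⧸ K))))
      rw [hQc] at h1
      simpa using h1
    have hcomm : Commute d x :=
      (Subgroup.mem_center_iff.mp (commutator_le_center hQ hQc hdm) x).symm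
    have h2 : y * x ^ p * y⁻¹ = x ^ p := by
      rw [← conj_pow, show y * x * y⁻¹ = d * x by rw [hd]; group, hcomm.mul_pow, hdp', one_mul]
    exact mul_inv_eq_iff_eq_mul.mp h2
  have hexp : ∀ x : P, x ^ (p * c * p) = 1 := by
    intro x
    rw [pow_mul]
    refine hKp _ ?_
    rw [← QuotientGroup.eq_one_iff, QuotientGroup.mk_pow, pow_mul]
    exact congrArg Subtype.val
      (pow_card_eq_one' (x := (⟨_, hpowc (x : P ⧸ K)⟩ : Subgroup.center (P ⧸ K))))
  -- the centre is large
  have hcen : c ≤ Nat.card (Subgroup.center P) := by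
    obtain ⟨z', hz'⟩ := hcyc.exists_zpow_surjective (G := Subgroup.center (P ⧸ K))
    obtain ⟨z, hz⟩ := hπs (z' : P ⧸ K)
    have hzp : z ^ p ∈ Subgroup.center P := by
      rw [Subgroup.mem_center_iff]
      intro y
      set d := y * z * y⁻¹ * z⁻¹ with hd
      have hdK : d ∈ K := by
        rw [← QuotientGroup.eq_one_iff]
        show π d = 1
        rw [hd]
        simp only [map_mul, map_inv, hz]
        rw [Subgroup.mem_center_iff.mp z'.2 (π y)]
        group
      have hcomm : Commute d z :=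
        (Subgroup.mem_center_iff.mp (hKZ hdK) z).symm
      have h2 : y * z ^ p * y⁻¹ = z ^ p := by
        rw [← conj_pow, show y * z * y⁻¹ = d * z by rw [hd]; group, hcomm.mul_pow, hKp _ hdK,
          one_mul]
      exact mul_inv_eq_iff_eq_mul.mp h2
    set U := (Subgroup.zpowers (π (z ^ p))).comap π with hU
    have hUZ : U ≤ Subgroup.center P := by
      intro u hu
      obtain ⟨i, hi⟩ := Subgroup.mem_zpowers_iff.mp (show π u ∈ Subgroup.zpowers (π (z ^ p)) from hu)
      rw [← map_zpow] at hi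
      have h1 : ((z ^ p) ^ i)⁻¹ * u ∈ K := QuotientGroup.eq.mp hi
      have := (Subgroup.center P).mul_mem ((Subgroup.center P).zpow_mem hzp i) (hKZ h1)
      simpa using this
    have hKU : K ≤ U := QuotientGroup.le_comap_mk' K _
    have hcardU : Nat.card U = orderOf (π (z ^ p)) * p := by
      have h1 := card_map_mk K U hKU
      rw [hU, Subgroup.map_comap_eq_self_of_surjective hπs, Nat.card_zpowers, hK] at h1
      exact h1.symm
    have hord : orderOf (π z) = c := by
      rw [hz, Subgroup.orderOf_coe, hcdef]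
      exact orderOf_eq_card_of_forall_mem_zpowers fun w => Subgroup.mem_zpowers_iff.mpr (hz' w)
    calc c = orderOf (π z) := hord.symm
      _ ≤ orderOf (π (z ^ p)) * p := by
        rw [map_pow, orderOf_pow' _ hp.out.ne_zero]
        have hg : Nat.gcd (orderOf (π z)) p ∣ orderOf (π z) := Nat.gcd_dvd_left _ _
        calc orderOf (π z) = orderOf (π z) / Nat.gcd (orderOf (π z)) p *
              Nat.gcd (orderOf (π z)) p := (Nat.div_mul_cancel hg).symm
          _ ≤ _ := Nat.mul_le_mul_left _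
              (Nat.le_of_dvd hp.out.pos (Nat.gcd_dvd_right _ _))
      _ = Nat.card U := hcardU.symm
      _ ≤ _ := Subgroup.card_le_of_le hUZ
  -- degrees of the characters nontrivial on `K`
  set T : Finset (IrrCharacter P) :=
    Finset.univ.filter fun χ => ¬ ∀ x ∈ K, (χ : P → ℂ) x = (χ : P → ℂ) 1 with hT
  have hdeg : ∀ χ ∈ T, ∃ n < m, charDegree (χ : P → ℂ) = p ^ n := by
    intro χ hχ
    have hχK := (Finset.mem_filter.mp hχ).2
    obtain ⟨n, hn⟩ := hdp χ
    refine ⟨n, ?_, hn⟩
    have hne : charDegree (χ : P → ℂ) ≠ D := by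
      intro he
      have hne1 : charDegree ((irrEquivQuotient K χQ : IrrCharacter P) : P → ℂ) ≠ 1 := by
        rw [inflate_degree]; exact hχQ
      obtain ⟨k, -, hkg⟩ := hG (irrEquivQuotient K χQ : IrrCharacter P) χ hne1
        (by rw [inflate_degree, he])
      refine hχK fun x hx => ?_
      rw [hkg, hkg, one_pow]
      exact (irrEquivQuotient K χQ).2 _ (K.pow_mem hx k)
    have hle : charDegree (χ : P → ℂ) ^ 2 * Nat.card (Subgroup.center P) ≤ Nat.card P := by
      have h := sum_mul_conj_eq_card_mul_classInner (χ : P → ℂ) (χ : P → ℂ)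
      rw [classInner_irr_self χ.2, mul_one] at h
      have hterm : ∀ z ∈ Finset.univ.filter (fun z => z ∈ Subgroup.center P),
          Complex.normSq ((χ : P → ℂ) z) = ((charDegree (χ : P → ℂ) ^ 2 : ℕ) : ℝ) := by
        intro z hz
        obtain ⟨ω, hω, hωz, -⟩ := irr_mul_center χ.2 (Finset.mem_filter.mp hz).2
        rw [hωz, apply_one_eq, Complex.normSq_eq_norm_sq, norm_mul,
          Complex.norm_eq_one_of_pow_eq_one hω (orderOf_pos z).ne', Complex.norm_natCast]
        simp
      have h' : ∑ g : P, Complex.normSq ((χ : P → ℂ) g) = (Nat.card P : ℝ) := by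
        have := congrArg Complex.re h
        simpa [Complex.mul_conj] using this
      have hsub := Finset.sum_le_sum_of_subset_of_nonneg
        (Finset.subset_univ (Finset.univ.filter fun z : P => z ∈ Subgroup.center P))
        (f := fun g => Complex.normSq ((χ : P → ℂ) g)) (fun g _ _ => Complex.normSq_nonneg _)
      rw [Finset.sum_congr rfl hterm, Finset.sum_const, nsmul_eq_mul, h'] at hsub
      rw [mul_comm, Nat.card_eq_fintype_card, Fintype.card_subtype]
      exact_mod_cast hsub
    have h1 : charDegree (χ : P → ℂ) ^ 2 * c ≤ D ^ 2 * p * c :=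
      calc charDegree (χ : P → ℂ) ^ 2 * c
          ≤ charDegree (χ : P → ℂ) ^ 2 * Nat.card (Subgroup.center P) :=
            Nat.mul_le_mul_left _ hcen
        _ ≤ Nat.card P := hle
        _ = D ^ 2 * p * c := by rw [hcardP]; ring
    have h2 := Nat.le_of_mul_le_mul_right h1 (hcdef ▸ Nat.card_pos)
    rw [hn, hm, ← pow_mul, ← pow_mul, ← pow_succ, Nat.pow_le_pow_iff_right hp.out.one_lt] at h2
    rw [hn, hm] at hne
    have h3 : n ≠ m := fun h => hne (by rw [h])
    omega
  -- each degree occurs rarely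
  set E := p * c * p with hE
  have hcount : ∀ n, (T.filter fun χ : IrrCharacter P => charDegree (χ : P → ℂ) = p ^ n).card ≤
      p ^ (s + 1) * (p - 1) := by
    intro n
    rcases (T.filter fun χ : IrrCharacter P => charDegree (χ : P → ℂ) = p ^ n).eq_empty_or_nonempty
      with he | ⟨χ₀, hχ₀⟩
    · simp [he]
    obtain ⟨hχ₀T, hχ₀n⟩ := Finset.mem_filter.mp hχ₀
    have hne1 : charDegree (χ₀ : P → ℂ) ≠ 1 := by
      intro h1
      refine (Finset.mem_filter.mp hχ₀T).2 fun x hx => ?_
      have h2 : (χ₀ : P → ℂ) 1 = 1 := by rw [apply_one_eq, h1, Nat.cast_one]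
      rw [linear_eq_one_of_mem_commutator (isCharacter_of_irr χ₀.2) h2 (hKc hx), h2]
    choose! k hk hkg using fun ψ (hψ : ψ ∈ T.filter fun χ : IrrCharacter P =>
        charDegree (χ : P → ℂ) = p ^ n) =>
      hG χ₀ ψ hne1 (hχ₀n.trans (Finset.mem_filter.mp hψ).2.symm)
    have hEpow : E = p ^ (s + 2) := by rw [hE, hcdef, hs]; ring
    have hEpos : 0 < E := hEpow ▸ pow_pos hp.out.pos _
    calc _ ≤ ((Finset.range E).filter fun a => E.Coprime a).card := by
          refine Finset.card_le_card_of_injOn (fun ψ => k ψ % E) (fun ψ hψ => ?_)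
            (fun ψ hψ ψ' hψ' h => ?_)
          · refine Finset.mem_filter.mpr ⟨Finset.mem_range.mpr (Nat.mod_lt _ hEpos), ?_⟩
            show E.Coprime (k ψ % E)
            rw [Nat.Coprime, Nat.gcd_comm, ← Nat.gcd_rec, Nat.gcd_comm, hEpow]
            refine Nat.Coprime.pow_right _ ((hk ψ hψ).coprime_dvd_right ?_)
            rw [hcardP]; exact Dvd.intro_left _ rfl
          · refine Subtype.ext (funext fun g => ?_)
            rw [hkg ψ hψ, hkg ψ' hψ', pow_eq_pow_mod (k ψ) (hexp g),
              pow_eq_pow_mod (k ψ') (hexp g)]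
            exact congrArg _ (congrArg (g ^ ·) h)
      _ = _ := by
          rw [← Nat.totient_eq_card_coprime, hEpow, Nat.totient_prime_pow_succ hp.out]
  -- the sum of the squares
  have hsumT : ∑ χ ∈ T, charDegree (χ : P → ℂ) ^ 2 + Nat.card (P ⧸ K) = Nat.card P := by
    apply Nat.cast_injective (R := ℂ)
    push_cast
    rw [← sum_irr_degree_sq (G := P), ← sum_irr_degree_sq (G := P ⧸ K),
      ← Finset.sum_filter_not_add_sum_filter Finset.univ
      (fun χ : IrrCharacter P => ∀ x ∈ K, (χ : P → ℂ) x = (χ : P → ℂ) 1)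
      (fun χ : IrrCharacter P => (χ : P → ℂ) 1 ^ 2)]
    congr 1
    · exact Finset.sum_congr rfl fun χ _ => by rw [apply_one_eq]
    · symm
      rw [Finset.sum_subtype (p := fun χ : IrrCharacter P =>
        ∀ x ∈ K, (χ : P → ℂ) x = (χ : P → ℂ) 1) _ (fun x => by simp),
        ← Equiv.sum_comp (irrEquivQuotient K)]
      simp only [irrEquivQuotient_apply, QuotientGroup.mk_one]
  have hbound : ∑ χ ∈ T, charDegree (χ : P → ℂ) ^ 2 ≤
      p ^ (s + 1) * (p - 1) * ∑ n ∈ Finset.range m, (p ^ 2) ^ n := by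
    choose! n hn hne using hdeg
    rw [← Finset.sum_fiberwise_of_maps_to (t := Finset.range m) (g := n)
      (fun χ hχ => Finset.mem_range.mpr (hn χ hχ)), Finset.mul_sum]
    refine Finset.sum_le_sum fun i _ => ?_
    calc ∑ χ ∈ T.filter (fun χ => n χ = i), charDegree (χ : P → ℂ) ^ 2
        = (T.filter fun χ => n χ = i).card * (p ^ 2) ^ i := by
          rw [Finset.sum_congr rfl (g := fun _ => (p ^ 2) ^ i) fun χ hχ => by
            obtain ⟨hχT, hi⟩ := Finset.mem_filter.mp hχ
            rw [hne χ hχT, hi, ← pow_mul, ← pow_mul, mul_comm], Finset.sum_const, smul_eq_mul]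
      _ ≤ _ := by
          refine Nat.mul_le_mul_right _ (le_trans (Finset.card_le_card fun χ hχ => ?_) (hcount i))
          obtain ⟨hχT, hi⟩ := Finset.mem_filter.mp hχ
          exact Finset.mem_filter.mpr ⟨hχT, hi ▸ hne χ hχT⟩
  have hgeom : (p ^ 2 - 1) * ∑ n ∈ Finset.range m, (p ^ 2) ^ n + 1 = (p ^ 2) ^ m := by
    obtain ⟨r, hr⟩ := Nat.exists_eq_add_of_le (Nat.one_le_pow 2 p hp.out.pos)
    rw [hr, Nat.add_sub_cancel_left, add_comm 1 r, mul_comm r, geom_sum_mul_add]
  set S := ∑ n ∈ Finset.range m, (p ^ 2) ^ n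
  have hc0 : c = p ^ s := hs
  rw [hcardP, ← hDc, hm, hc0] at hsumT
  obtain ⟨q, hq⟩ := Nat.exists_eq_add_of_le hp.out.two_le
  have h2 : p ^ 2 - 1 = q * q + 4 * q + 3 := by
    have : p ^ 2 = q * q + 4 * q + 4 := by rw [hq]; ring
    omega
  have h3 : p - 1 = q + 1 := by omega
  rw [h2] at hgeom
  rw [h3] at hbound
  have hA : (p ^ m) ^ 2 = (p ^ 2) ^ m := by rw [← pow_mul, ← pow_mul, mul_comm]
  rw [hA] at hsumT
  set A := (p ^ 2) ^ m
  have h4 : A * p ^ s * (q + 1) ≤ p ^ (s + 1) * (q + 1) * S := by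
    have h5 : A * p ^ s * p = A * p ^ s * (q + 1) + A * p ^ s := by
      conv_lhs => arg 2; rw [hq]
      ring
    omega
  have h6 : A ≤ p * S := by
    refine Nat.le_of_mul_le_mul_right (c := p ^ s * (q + 1)) ?_ (Nat.mul_pos (pow_pos hp.out.pos _) (Nat.succ_pos _))
    calc A * (p ^ s * (q + 1)) = A * p ^ s * (q + 1) := by ring
      _ ≤ _ := h4
      _ = p * S * (p ^ s * (q + 1)) := by ring
  subst hq
  nlinarith

/-- The derived subgroup has order `p`. -/
theorem card_commutator_of_galoisCond (hP : IsPGroup p P) (hna : ¬ IsMulCommutative P)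
    (hG : GaloisCond P) : Nat.card (commutator P) = p := by
  obtain ⟨a, ha⟩ := IsPGroup.iff_card.mp (hP.to_subgroup (commutator P))
  rcases Nat.lt_or_ge a 2 with h | h
  · interval_cases a
    · exfalso
      apply hna
      rw [pow_zero, Subgroup.card_eq_one] at ha
      refine ⟨⟨fun x y => ?_⟩⟩
      have h1 : x * y * x⁻¹ * y⁻¹ ∈ commutator P :=
        Subgroup.commutator_mem_commutator (Subgroup.mem_top _) (Subgroup.mem_top _)
      rw [ha, Subgroup.mem_bot] at h1
      calc x * y = x * y * x⁻¹ * y⁻¹ * (y * x) := by group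
        _ = y * x := by rw [h1, one_mul]
    · rw [ha, pow_one]
  exfalso
  obtain ⟨b, rfl⟩ := Nat.exists_eq_add_of_le h
  obtain ⟨L, hLn, -, hLle, hLc⟩ := PGroup.exists_normal_card_eq (p := p) hP (k := b)
    (bot_le : (⊥ : Subgroup P) ≤ commutator P) (by rw [Subgroup.card_bot]; exact Nat.one_le_pow _ _ hp.out.pos)
    (by rw [ha]; exact Nat.pow_le_pow_right hp.out.pos (by omega))
  haveI := hLn
  have hQ : IsPGroup p (P ⧸ L) := hP.to_quotient L
  have hc : Nat.card (commutator (P ⧸ L)) = p * p := by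
    have h1 := card_map_mk L (commutator P) hLle
    rw [← commutator_quotient, hLc, ha, pow_add, pow_two] at h1
    exact Nat.eq_of_mul_eq_mul_right (pow_pos hp.out.pos b) h1
  obtain ⟨K, hKn, -, hKle, hKc⟩ := PGroup.exists_normal_card_eq (p := p) hQ (k := 1)
    (bot_le : (⊥ : Subgroup (P ⧸ L)) ≤ commutator (P ⧸ L))
    (by rw [Subgroup.card_bot, pow_one]; exact hp.out.pos)
    (by rw [hc, pow_one]; exact Nat.le_mul_of_pos_left _ hp.out.pos)
  haveI := hKn
  rw [pow_one] at hKc
  exact false_of_layer hQ (galoisCond_quotient hG L) K hKc hKle hc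

/-- The converse. -/
theorem galoisCond_of_card (hP : IsPGroup p P) (hc : Nat.card (commutator P) = p)
    (hcyc : IsCyclic (Subgroup.center P)) : GaloisCond P := by
  classical
  intro χ ψ hχ heq
  haveI := hcyc
  obtain ⟨z, hz⟩ := hcyc.exists_zpow_surjective (G := Subgroup.center P)
  set N := Nat.card (Subgroup.center P) with hN
  have hz_ord : orderOf z = N :=
    orderOf_eq_card_of_forall_mem_zpowers fun w => Subgroup.mem_zpowers_iff.mpr (hz w)
  have hfaith : ∀ θ : IrrCharacter P, charDegree (θ : P → ℂ) ≠ 1 →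
      ∀ g, (θ : P → ℂ) g = (θ : P → ℂ) 1 → g = 1 := by
    intro θ hθ g hg
    obtain ⟨K, hKn, hK⟩ := isCharacter_exists_kernel (isCharacter_of_irr θ.2)
    haveI := hKn
    suffices K = ⊥ by simpa [this] using (hK g).mpr hg
    by_contra hne
    obtain ⟨x, hx⟩ := exists_prime_orderOf_dvd_card' (G := ↥(K ⊓ Subgroup.center P)) p
      ((hP.to_subgroup _).card_eq_or_dvd.resolve_left fun h =>
        PGroup.inf_center_ne_bot hP K hne (Subgroup.card_eq_one.mp h))
    have hxne : (x : P) ≠ 1 := by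
      intro h
      rw [← Subgroup.orderOf_coe, h, orderOf_one] at hx
      exact hp.out.one_lt.ne hx
    obtain ⟨c, hcm, hc1⟩ : ∃ c ∈ commutator P, c ≠ 1 := by
      by_contra! h
      rw [(Subgroup.eq_bot_iff_forall _).mpr h, Subgroup.card_bot] at hc
      exact hp.out.one_lt.ne hc
    have hcZ := commutator_le_center hP hc hcm
    have hco : orderOf (⟨c, hcZ⟩ : Subgroup.center P) = p := by
      rw [Subgroup.orderOf_mk]
      refine orderOf_eq_prime ?_ hc1
      have h1 := congrArg Subtype.val (pow_card_eq_one' (x := (⟨c, hcm⟩ : commutator P)))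
      rw [hc] at h1
      simpa using h1
    have hxo : orderOf (⟨(x : P), x.2.2⟩ : Subgroup.center P) = p := by
      rw [Subgroup.orderOf_mk, Subgroup.orderOf_coe, hx]
    letI := Fintype.ofFinite (Subgroup.center P)
    have hzeq : Subgroup.zpowers (⟨c, hcZ⟩ : Subgroup.center P) =
        Subgroup.zpowers ⟨(x : P), x.2.2⟩ := by
      refine SetLike.coe_injective ((Set.eq_of_subset_of_ncard_le
        (t := {w : Subgroup.center P | w ^ p = 1}) ?_ ?_ (Set.toFinite _)).trans
        (Set.eq_of_subset_of_ncard_le (t := {w : Subgroup.center P | w ^ p = 1}) ?_ ?_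
          (Set.toFinite _)).symm)
      · intro w hw
        show w ^ p = 1
        rw [← hco]
        exact orderOf_dvd_iff_pow_eq_one.mp (orderOf_dvd_of_mem_zpowers hw)
      · rw [Set.ncard_eq_toFinset_card', ← Nat.card_coe_set_eq, show Nat.card
          ↥(Subgroup.zpowers (⟨c, hcZ⟩ : Subgroup.center P) : Set (Subgroup.center P)) = p from
          (Nat.card_zpowers _).trans hco, Set.toFinset_setOf]
        exact IsCyclic.card_pow_eq_one_le hp.out.pos
      · intro w hw
        show w ^ p = 1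
        rw [← hxo]
        exact orderOf_dvd_iff_pow_eq_one.mp (orderOf_dvd_of_mem_zpowers hw)
      · rw [Set.ncard_eq_toFinset_card', ← Nat.card_coe_set_eq, show Nat.card
          ↥(Subgroup.zpowers (⟨(x : P), x.2.2⟩ : Subgroup.center P) :
            Set (Subgroup.center P)) = p from (Nat.card_zpowers _).trans hxo, Set.toFinset_setOf]
        exact IsCyclic.card_pow_eq_one_le hp.out.pos
    obtain ⟨i, hi⟩ := Subgroup.mem_zpowers_iff.mp
      (hzeq ▸ Subgroup.mem_zpowers (⟨c, hcZ⟩ : Subgroup.center P) :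
        (⟨c, hcZ⟩ : Subgroup.center P) ∈ Subgroup.zpowers ⟨(x : P), x.2.2⟩)
    have hi' : (x : P) ^ i = c := by
      have := congrArg Subtype.val hi
      simpa using this
    exact hc1 (ne_one_of_mem_commutator hP hc θ hθ hcm
      ((hK c).mp (hi' ▸ K.zpow_mem x.2.1 i)))
  have hψ : charDegree (ψ : P → ℂ) ≠ 1 := heq ▸ hχ
  have hval : ∀ θ : IrrCharacter P, charDegree (θ : P → ℂ) ≠ 1 →
      ∃ ω : ℂ, IsPrimitiveRoot ω N ∧
        ∀ j : ℕ, (θ : P → ℂ) ((z : P) ^ j) = ω ^ j * (θ : P → ℂ) 1 := by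
    intro θ hθ
    obtain ⟨ω, -, -, hω⟩ := irr_mul_center θ.2 z.2
    have hj : ∀ j : ℕ, (θ : P → ℂ) ((z : P) ^ j) = ω ^ j * (θ : P → ℂ) 1 := by
      intro j
      induction j with
      | zero => simp
      | succ j ih => rw [pow_succ', hω, ih, pow_succ']; ring
    refine ⟨ω, IsPrimitiveRoot.mk_of_lt ω Nat.card_pos ?_ ?_, hj⟩
    · refine mul_right_cancel₀ (irr_one_ne_zero θ.2) ?_
      rw [← hj, one_mul, ← hz_ord, ← Subgroup.orderOf_coe, pow_orderOf_eq_one]
    · intro l hl0 hlN h1
      have h2 := hfaith θ hθ _ (by rw [hj, h1, one_mul])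
      rw [← hz_ord, ← Subgroup.orderOf_coe] at hlN
      exact (pow_ne_one_of_lt_orderOf hl0.ne' hlN) h2
  obtain ⟨ω1, h1, hv1⟩ := hval χ hχ
  obtain ⟨ω2, h2, hv2⟩ := hval ψ hψ
  haveI : NeZero N := ⟨Nat.card_pos.ne'⟩
  obtain ⟨k, -, hkco, hk⟩ := h1.isPrimitiveRoot_iff.mp h2
  have hpN : p ∣ N := by
    rw [← hc]; exact Subgroup.card_dvd_of_le (commutator_le_center hP hc)
  have hkP : k.Coprime (Nat.card P) := by
    obtain ⟨j, hj⟩ := IsPGroup.iff_card.mp hP
    rw [hj]
    exact (hkco.coprime_dvd_right hpN).pow_right j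
  refine ⟨k, hkP, fun g => ?_⟩
  by_cases hg : g ∈ Subgroup.center P
  · obtain ⟨j, hj⟩ := mem_powers_iff_mem_zpowers.mpr (Subgroup.mem_zpowers_iff.mpr (hz ⟨g, hg⟩) :
      (⟨g, hg⟩ : Subgroup.center P) ∈ Subgroup.zpowers z)
    have hj' : (z : P) ^ j = g := by
      have := congrArg Subtype.val hj
      simpa using this
    rw [← hj', hv2, ← pow_mul, hv1, ← hk, ← pow_mul, apply_one_eq ψ, apply_one_eq χ, heq,
      mul_comm j k]
  · rw [eq_zero_of_notMem_center hP hc ψ hψ hg, eq_zero_of_notMem_center hP hc χ hχ]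
    intro h
    apply hg
    obtain ⟨i, hi⟩ := exists_pow_eq_self_of_coprime (x := g)
      (hkP.coprime_dvd_right (orderOf_dvd_natCard g))
    exact hi ▸ Subgroup.pow_mem _ h i

end Cfsg.Agent.CharGaloisP
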